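import Mathlib

set_option autoImplicit false

namespace Cfsg.Agent.Lib.Helper4

universe u v

section

variable {F : Type u} [Field F] {V : Type v} [AddCommGroup V] [Module F V]

theorem alt_swap (B : LinearMap.BilinForm F V) (halt : ∀ x, B x x = 0) (x y : V) :
    B x y = - B y x := by
  have h := halt (x + y)
  simp only [map_add, LinearMap.add_apply, halt, zero_add, add_zero] at h
  exact eq_neg_of_add_eq_zero_right h

theorem alt_isRefl (B : LinearMap.BilinForm F V) (halt : ∀ x, B x x = 0) : B.IsRefl := by
  intro x y h
  rw [alt_swap B halt, h, neg_zero]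

theorem alt_orth_mem (B : LinearMap.BilinForm F V) (v w z : V) :
    z ∈ LinearMap.BilinForm.orthogonal B (Submodule.span F (Set.range ![v, w])) ↔
      B v z = 0 ∧ B w z = 0 := by
  rw [LinearMap.BilinForm.mem_orthogonal_iff]
  constructor
  · intro h
    exact ⟨h v (Submodule.subset_span ⟨0, rfl⟩), h w (Submodule.subset_span ⟨1, rfl⟩)⟩
  · rintro ⟨h1, h2⟩ n hn
    induction hn using Submodule.span_induction with
    | mem x hx =>
      obtain ⟨i, rfl⟩ := hx
      fin_cases i
      · exact h1
      · exact h2
    | zero =>
      show B 0 z = 0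
      simp
    | add x y _ _ hx hy =>
      show B (x + y) z = 0
      have hx' : B x z = 0 := hx
      have hy' : B y z = 0 := hy
      rw [map_add, LinearMap.add_apply, hx', hy', add_zero]
    | smul a x _ hx =>
      show B (a • x) z = 0
      have hx' : B x z = 0 := hx
      rw [map_smul, LinearMap.smul_apply, hx', smul_zero]

theorem alt_split [FiniteDimensional F V] (B : LinearMap.BilinForm F V)
    (halt : ∀ x, B x x = 0) (hB : B.Nondegenerate) (v w : V)
    (hvw : B v w = 1) {k : ℕ} (hV : Module.finrank F V = k + 2) :
    Module.finrank F (LinearMap.BilinForm.orthogonal B (Submodule.span F (Set.range ![v, w]))) = k ∧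
    (LinearMap.BilinForm.restrict B
      (LinearMap.BilinForm.orthogonal B (Submodule.span F (Set.range ![v, w])))).Nondegenerate := by
  have hvv : B v v = 0 := halt v
  have hww : B w w = 0 := halt w
  have hwv : B w v = -1 := by rw [alt_swap B halt, hvw]
  have hli : LinearIndependent F ![v, w] := by
    rw [LinearIndependent.pair_iff]
    intro s t hst
    have h1 := congrArg (B v) hst
    have h2 := congrArg (B w) hst
    simp only [map_add, map_smul, hvv, hvw, hwv, hww, map_zero, smul_eq_mul, mul_zero, mul_one,
      zero_add, add_zero, mul_neg, neg_eq_zero] at h1 h2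
    exact ⟨h2, h1⟩
  have hfr := finrank_span_eq_card hli
  rw [Fintype.card_fin] at hfr
  refine ⟨?_, ?_⟩
  · rw [LinearMap.BilinForm.finrank_orthogonal hB, hfr, hV]
    omega
  · have key : ∀ z : LinearMap.BilinForm.orthogonal B (Submodule.span F (Set.range ![v, w])),
        (∀ y : LinearMap.BilinForm.orthogonal B (Submodule.span F (Set.range ![v, w])),
          B (z : V) (y : V) = 0) → z = 0 := by
      intro z hz
      apply Subtype.ext
      apply hB.1
      intro u
      obtain ⟨hz1, hz2⟩ := (alt_orth_mem B v w z).1 z.2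
      have hu' : u + B w u • v - B v u • w ∈
          LinearMap.BilinForm.orthogonal B (Submodule.span F (Set.range ![v, w])) := by
        rw [alt_orth_mem]
        constructor
        · simp only [map_add, map_sub, map_smul, hvv, hvw, smul_eq_mul, mul_zero, mul_one,
            add_zero, sub_self]
        · simp only [map_add, map_sub, map_smul, hww, hwv, smul_eq_mul, mul_zero, mul_neg, mul_one,
            sub_zero, add_neg_cancel]
      have h3 := hz ⟨_, hu'⟩
      simp only [map_add, map_sub, map_smul, smul_eq_mul] at h3
      rw [alt_swap B halt (z : V) v, alt_swap B halt (z : V) w, hz1, hz2] at h3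
      simpa using h3
    refine ⟨fun z hz => key z hz, ?_⟩
    intro y hy
    apply key y
    intro z
    have h4 : B (z : V) (y : V) = 0 := hy z
    rw [alt_swap B halt, h4, neg_zero]

end

theorem alt_struct (F : Type u) [Field F] :
    ∀ (n : ℕ) (V : Type v) [AddCommGroup V] [Module F V] [FiniteDimensional F V]
      (B : LinearMap.BilinForm F V), Module.finrank F V = 2 * n →
      (∀ x, B x x = 0) → B.Nondegenerate →
      ∃ (e f : Fin n → V), (∀ i j, B (e i) (f j) = if i = j then 1 else 0) ∧
        (∀ i j, B (e i) (e j) = 0) ∧ (∀ i j, B (f i) (f j) = 0) := by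
  intro n
  induction n with
  | zero =>
    intro V _ _ _ B hV halt hB
    exact ⟨Fin.elim0, Fin.elim0, fun i => i.elim0, fun i => i.elim0, fun i => i.elim0⟩
  | succ n ih =>
    intro V _ _ _ B hV halt hB
    obtain ⟨v, hv⟩ : ∃ x : V, x ≠ 0 := by
      have : 0 < Module.finrank F V := by omega
      exact Module.finrank_pos_iff_exists_ne_zero.1 this
    obtain ⟨y, hy⟩ : ∃ y, B v y ≠ 0 := by
      by_contra hcon
      push Not at hcon
      exact hv (hB.1 v hcon)
    obtain ⟨w, hw⟩ : ∃ w : V, w = (B v y)⁻¹ • y := ⟨_, rfl⟩
    have hvw : B v w = 1 := by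
      rw [hw, map_smul, smul_eq_mul, inv_mul_cancel₀ hy]
    obtain ⟨hfr, hnd⟩ := alt_split B halt hB v w hvw (k := 2 * n) (by omega)
    obtain ⟨e', f', h1, h2, h3⟩ := ih _ _ hfr (fun x => halt (x : V)) hnd
    have hmem : ∀ z : LinearMap.BilinForm.orthogonal B
        (Submodule.span F (Set.range ![v, w])), B v (z : V) = 0 ∧ B w (z : V) = 0 :=
      fun z => (alt_orth_mem B v w z).1 z.2
    have hmem' : ∀ z : LinearMap.BilinForm.orthogonal B
        (Submodule.span F (Set.range ![v, w])), B (z : V) v = 0 ∧ B (z : V) w = 0 :=
      fun z => ⟨by rw [alt_swap B halt, (hmem z).1, neg_zero],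
        by rw [alt_swap B halt, (hmem z).2, neg_zero]⟩
    refine ⟨Fin.cons v (fun i => (e' i : V)), Fin.cons w (fun i => (f' i : V)), ?_, ?_, ?_⟩
    · intro i j
      refine Fin.cases ?_ (fun i' => ?_) i <;> refine Fin.cases ?_ (fun j' => ?_) j
      · simp [hvw]
      · simp [(hmem (f' j')).1, (Fin.succ_ne_zero j').symm]
      · simp [(hmem' (e' i')).2, Fin.succ_ne_zero]
      · have := h1 i' j'
        simp only [Fin.cons_succ, Fin.succ_inj]
        exact this
    · intro i j
      refine Fin.cases ?_ (fun i' => ?_) i <;> refine Fin.cases ?_ (fun j' => ?_) j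
      · simp only [Fin.cons_zero]
        exact halt v
      · simp only [Fin.cons_zero, Fin.cons_succ]
        exact (hmem (e' j')).1
      · simp only [Fin.cons_zero, Fin.cons_succ]
        exact (hmem' (e' i')).1
      · simp only [Fin.cons_succ]
        exact h2 i' j'
    · intro i j
      refine Fin.cases ?_ (fun i' => ?_) i <;> refine Fin.cases ?_ (fun j' => ?_) j
      · simp only [Fin.cons_zero]
        exact halt w
      · simp only [Fin.cons_zero, Fin.cons_succ]
        exact (hmem (f' j')).2
      · simp only [Fin.cons_zero, Fin.cons_succ]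
        exact (hmem' (f' i')).2
      · simp only [Fin.cons_succ]
        exact h3 i' j'

theorem alt_basis {F : Type u} [Field F] {V : Type v} [AddCommGroup V] [Module F V]
    [FiniteDimensional F V] (B : LinearMap.BilinForm F V) (halt : ∀ x, B x x = 0)
    (hB : B.Nondegenerate) {n : ℕ} (hV : Module.finrank F V = 2 * n) :
    ∃ b : Module.Basis (Fin n ⊕ Fin n) F V,
      LinearMap.BilinForm.toMatrix b B = Matrix.J (Fin n) F := by
  classical
  obtain ⟨e, f, h1, h2, h3⟩ := alt_struct F n V B hV halt hB
  have h1' : ∀ i j, B (f i) (e j) = if i = j then -1 else 0 := by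
    intro i j
    rw [alt_swap B halt, h1 j i]
    by_cases hij : i = j
    · subst hij
      simp
    · rw [if_neg hij, if_neg (fun h => hij h.symm), neg_zero]
  have hli : LinearIndependent F (Sum.elim f e) := by
    rw [Fintype.linearIndependent_iff]
    intro c hc
    rw [Fintype.sum_sum_type] at hc
    simp only [Sum.elim_inl, Sum.elim_inr] at hc
    intro j
    rcases j with j | j
    · have h5 := congrArg (B (e j)) hc
      simp only [map_add, map_sum, map_smul, map_zero, smul_eq_mul, h1, h2, mul_zero,
        Finset.sum_const_zero, add_zero, mul_ite, mul_one, Finset.sum_ite_eq, Finset.mem_univ,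
        if_true] at h5
      exact h5
    · have h5 := congrArg (B (f j)) hc
      simp only [map_add, map_sum, map_smul, map_zero, smul_eq_mul, h1', h3, mul_zero,
        Finset.sum_const_zero, zero_add, mul_ite, mul_neg, mul_one, Finset.sum_ite_eq,
        Finset.mem_univ, if_true, neg_eq_zero] at h5
      exact h5
  have hcard : Fintype.card (Fin n ⊕ Fin n) = Module.finrank F V := by
    rw [hV]
    simp
    ring
  have hsp := hli.span_eq_top_of_card_eq_finrank' hcard
  refine ⟨Module.Basis.mk hli hsp.ge, ?_⟩
  ext i j
  rw [LinearMap.BilinForm.toMatrix_apply, Module.Basis.coe_mk]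
  rcases i with i | i <;> rcases j with j | j
  · simp [Matrix.J, h3]
  · simp only [Matrix.J, h1', Matrix.one_apply, Sum.elim_inl, Sum.elim_inr,
      Matrix.fromBlocks_apply₁₂, Matrix.neg_apply]
    split_ifs <;> simp
  · simp [Matrix.J, h1, Matrix.one_apply]
  · simp [Matrix.J, h2]

/-- An injective action by isometries of a non-degenerate alternating form gives an embedding in
the symplectic group. -/
theorem exists_symp_embedding {F : Type u} [Field F] {V : Type v} [AddCommGroup V] [Module F V]
    [FiniteDimensional F V] (B : LinearMap.BilinForm F V) (halt : ∀ x, B x x = 0)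
    (hnd : ∀ x, (∀ y, B x y = 0) → x = 0) {n : ℕ} (hV : Module.finrank F V = 2 * n)
    {G : Type*} [Group G] (ψ : G →* (V →ₗ[F] V)) (hψ : Function.Injective ψ)
    (hiso : ∀ g u w, B (ψ g u) (ψ g w) = B u w) :
    ∃ φ : G →* ↥(Matrix.symplecticGroup (Fin n) F), Function.Injective φ := by
  classical
  have hB : B.Nondegenerate := by
    refine ⟨hnd, ?_⟩
    intro y hy
    apply hnd
    intro x
    rw [alt_swap B halt, hy x, neg_zero]
  obtain ⟨b, hb⟩ := alt_basis B halt hB hV
  have hmem : ∀ g : G, LinearMap.toMatrix b b (ψ g) ∈ Matrix.symplecticGroup (Fin n) F := by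
    intro g
    rw [SymplecticGroup.mem_iff']
    have h1 : LinearMap.BilinForm.comp B (ψ g) (ψ g) = B := by
      ext u w
      exact hiso g u w
    have h2 := LinearMap.BilinForm.toMatrix_comp b b B (ψ g) (ψ g)
    rw [h1, hb] at h2
    exact h2.symm
  refine ⟨{ toFun := fun g => ⟨LinearMap.toMatrix b b (ψ g), hmem g⟩
            map_one' := ?_
            map_mul' := ?_ }, ?_⟩
  · apply Subtype.ext
    show LinearMap.toMatrix b b (ψ 1) = 1
    rw [map_one]
    exact LinearMap.toMatrix_one b
  · intro g h
    apply Subtype.ext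
    show LinearMap.toMatrix b b (ψ (g * h)) = LinearMap.toMatrix b b (ψ g) * LinearMap.toMatrix b b (ψ h)
    rw [map_mul]
    exact LinearMap.toMatrix_mul b (ψ g) (ψ h)
  · intro g h hgh
    apply hψ
    have h3 : LinearMap.toMatrix b b (ψ g) = LinearMap.toMatrix b b (ψ h) :=
      congrArg Subtype.val hgh
    exact (LinearMap.toMatrix b b).injective h3

end Cfsg.Agent.Lib.Helper4
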