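import Mathlib
import Cfsg.Agent.Lib.Helper4.SympBasis

set_option autoImplicit false

namespace Cfsg.Agent.Lib.Helper4

universe u v

/-- A space carrying a nondegenerate alternating form has even dimension. -/
theorem alt_even (F : Type u) [Field F] :
    ∀ (n : ℕ) (V : Type v) [AddCommGroup V] [Module F V] [FiniteDimensional F V]
      (B : LinearMap.BilinForm F V), Module.finrank F V = n →
      (∀ x, B x x = 0) → B.Nondegenerate → Even n := by
  intro n
  induction n using Nat.strong_induction_on with
  | _ n ih =>
    intro V _ _ _ B hV halt hB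
    rcases n with _ | _ | k
    · exact ⟨0, rfl⟩
    · exfalso
      obtain ⟨v, hv⟩ : ∃ x : V, x ≠ 0 := by
        have : 0 < Module.finrank F V := by omega
        exact Module.finrank_pos_iff_exists_ne_zero.1 this
      apply hv
      apply hB.1
      intro y
      obtain ⟨c, hc⟩ : ∃ c : F, c • v = y :=
        (finrank_eq_one_iff_of_nonzero' v hv).1 hV y
      rw [← hc, map_smul, halt, smul_zero]
    · obtain ⟨v, hv⟩ : ∃ x : V, x ≠ 0 := by
        have : 0 < Module.finrank F V := by omega
        exact Module.finrank_pos_iff_exists_ne_zero.1 this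
      obtain ⟨y, hy⟩ : ∃ y, B v y ≠ 0 := by
        by_contra hcon
        push Not at hcon
        exact hv (hB.1 v hcon)
      obtain ⟨w, hw⟩ : ∃ w : V, w = (B v y)⁻¹ • y := ⟨_, rfl⟩
      have hvw : B v w = 1 := by
        rw [hw, map_smul, smul_eq_mul, inv_mul_cancel₀ hy]
      obtain ⟨hfr, hnd⟩ := alt_split B halt hB v w hvw (k := k) (by omega)
      obtain ⟨r, hr⟩ := ih k (by omega) _ _ hfr (fun x => halt (x : V)) hnd
      exact ⟨r + 1, by omega⟩

end Cfsg.Agent.Lib.Helper4
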