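import Mathlib
import Cfsg.Agent.Lib.Helper4.Normalizer
import Cfsg.Agent.Lib.Helper4.PClosed
import Cfsg.Agent.Lib.Helper4.DihedralHom

set_option autoImplicit false

namespace Cfsg.Agent.Lib.Helper4

/-- The centralizer of a subgroup is normal in its normalizer. -/
theorem centralizer_subgroupOf_normalizer_normal {G : Type*} [Group G] (P : Subgroup G) :
    ((Subgroup.centralizer (P : Set G)).subgroupOf (Subgroup.normalizer (P : Set G))).Normal := by
  rw [Subgroup.normal_subgroupOf_iff_le_normalizer (Subgroup.centralizer_le_normalizer _)]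
  exact le_normalizer_centralizer le_rfl

/-- If an element `x ≠ x⁻¹` of an abelian Sylow subgroup `P` is conjugate to its inverse, then
`N(P)/C(P)` has even order. -/
theorem even_index_of_inverted {G : Type*} [Group G] [Finite G] {p : ℕ} [Fact p.Prime]
    (P : Sylow p G) (hP : IsMulCommutative (P : Subgroup G)) (x g : G) (hxP : x ∈ P)
    (hxinv : x⁻¹ ≠ x) (hg : g * x * g⁻¹ = x⁻¹) :
    2 ∣ ((Subgroup.centralizer ((P : Subgroup G) : Set G)).subgroupOf
      (Subgroup.normalizer ((P : Subgroup G) : Set G))).index := by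
  obtain ⟨N, hN⟩ : ∃ N, N = Subgroup.normalizer ((P : Subgroup G) : Set G) := ⟨_, rfl⟩
  obtain ⟨C, hC⟩ : ∃ C, C = Subgroup.centralizer ((P : Subgroup G) : Set G) := ⟨_, rfl⟩
  rw [← hN, ← hC]
  have hnorm : (C.subgroupOf N).Normal := by
    rw [hC, hN]
    exact centralizer_subgroupOf_normalizer_normal _
  obtain ⟨m, hm, hmx⟩ := P.conj_eq_normalizer_conj_of_mem x g⁻¹ hxP
    (by rw [inv_inv, hg]; exact inv_mem hxP)
  rw [inv_inv, hg] at hmx
  have hmN : m ∈ N := hN ▸ hm
  have hkC : (⟨m, hmN⟩ : ↥N) ^ (C.subgroupOf N).index ∈ C.subgroupOf N :=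
    Subgroup.pow_index_mem _ _
  rw [Subgroup.mem_subgroupOf] at hkC
  have hkC' : m ^ (C.subgroupOf N).index ∈ C := by simpa using hkC
  have hkC2 := hC.le hkC'
  rw [Subgroup.mem_centralizer_iff] at hkC2
  have hcomm : Commute (m ^ (C.subgroupOf N).index) x := (hkC2 x hxP).symm
  have h2 : Commute (m ^ 2) x := by
    show m ^ 2 * x = x * m ^ 2
    have e1 : m⁻¹ * x⁻¹ * m = x := by
      have := congrArg (fun y => y⁻¹) hmx
      simp only [inv_inv, mul_inv_rev] at this
      rw [← mul_assoc] at this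
      exact this.symm
    have e2 : x * m = m * x⁻¹ := by rw [hmx]; group
    have e3 : x⁻¹ * m = m * x := by
      calc x⁻¹ * m = m * (m⁻¹ * x⁻¹ * m) := by group
        _ = m * x := by rw [e1]
    rw [pow_two, mul_assoc, ← mul_assoc x, e2, mul_assoc, e3]
  rcases Nat.even_or_odd (C.subgroupOf N).index with hev | hodd
  · exact even_iff_two_dvd.1 hev
  · exfalso
    obtain ⟨j, hj⟩ := hodd
    rw [hj, pow_succ, pow_mul] at hcomm
    have h3 : Commute ((m ^ 2) ^ j) x := h2.pow_left j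
    have h4 : Commute m x := by
      have := (h3.inv_left).mul_left hcomm
      rwa [inv_mul_cancel_left] at this
    apply hxinv
    rw [hmx, mul_assoc, ← h4.eq, inv_mul_cancel_left]

/-- A finite group containing an element `a` with `a^4 = 1` and an involution `b` inverting but
not centralizing it has non-abelian Sylow 2-subgroups. -/
theorem sylow_two_not_comm_of_dihedral {G : Type*} [Group G] [Finite G] (P : Sylow 2 G)
    (a b : G) (ha : a ^ 4 = 1) (hb : b * b = 1) (hab : b * a * b⁻¹ = a⁻¹)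
    (hne : a * b ≠ b * a) : ¬ IsMulCommutative (P : Subgroup G) := by
  intro hP
  obtain ⟨f, hf⟩ : ∃ f : DihedralGroup 4 →* G, f = dihedralLift 4 a b ha hb hab := ⟨_, rfl⟩
  have hD : IsPGroup 2 (DihedralGroup 4) := by
    apply IsPGroup.of_card (n := 3)
    rw [DihedralGroup.nat_card]
    norm_num
  have hR : IsPGroup 2 ↥f.range := by
    rw [MonoidHom.range_eq_map]
    exact (hD.to_subgroup ⊤).map f
  obtain ⟨Q, hQ⟩ := hR.exists_le_sylow
  obtain ⟨g, hg⟩ := MulAction.exists_smul_eq G Q P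
  have haQ : a ∈ Q := hQ ⟨DihedralGroup.r 1, by
    rw [hf, dihedralLift_r]
    have : (1 : ZMod 4).val = 1 := rfl
    rw [this, pow_one]⟩
  have hbQ : b ∈ Q := hQ ⟨DihedralGroup.sr 0, by
    rw [hf, dihedralLift_sr]
    have : (0 : ZMod 4).val = 0 := rfl
    rw [this, pow_zero, mul_one]⟩
  have haP : g * a * g⁻¹ ∈ P := by
    rw [← hg]
    apply mem_sylow_smul_iff.2
    have e : g⁻¹ * (g * a * g⁻¹) * g = a := by group
    rw [e]; exact haQ
  have hbP : g * b * g⁻¹ ∈ P := by
    rw [← hg]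
    apply mem_sylow_smul_iff.2
    have e : g⁻¹ * (g * b * g⁻¹) * g = b := by group
    rw [e]; exact hbQ
  have hcomm := hP.is_comm.comm (⟨g * a * g⁻¹, haP⟩ : ↥(P : Subgroup G)) ⟨g * b * g⁻¹, hbP⟩
  have hcomm' : (g * a * g⁻¹) * (g * b * g⁻¹) = (g * b * g⁻¹) * (g * a * g⁻¹) :=
    congrArg Subtype.val hcomm
  apply hne
  calc a * b = g⁻¹ * ((g * a * g⁻¹) * (g * b * g⁻¹)) * g := by group
    _ = g⁻¹ * ((g * b * g⁻¹) * (g * a * g⁻¹)) * g := by rw [hcomm']
    _ = b * a := by group

end Cfsg.Agent.Lib.Helper4
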