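import Mathlib
import Cfsg.Agent.Lib.Helper4.CycleType

set_option autoImplicit false

namespace Cfsg.Agent.Lib.Helper4

/-- Exhaustive checker over all multisets of parts at least 2 with bounded sum and an even number
of even parts: every lcm lies in the list `ok`. -/
def chkOrd (ok : List ℕ) : ℕ → ℕ → ℕ → Bool → Bool
  | 0, _, L, par => par || ok.contains L
  | fuel + 1, b, L, par => (par || ok.contains L) &&
      (List.range (b + 1)).all (fun a => decide (a < 2) ||
        chkOrd ok fuel (b - a) (Nat.lcm L a) (xor par (decide (a % 2 = 0))))

theorem chkOrd_head (ok : List ℕ) (fuel b L : ℕ) (par : Bool)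
    (h : chkOrd ok fuel b L par = true) : (par || ok.contains L) = true := by
  cases fuel with
  | zero => exact h
  | succ n =>
    simp only [chkOrd, Bool.and_eq_true] at h
    exact h.1

theorem chkOrd_sound (ok : List ℕ) : ∀ (fuel b L : ℕ) (par : Bool), b ≤ fuel →
    chkOrd ok fuel b L par = true →
    ∀ l : List ℕ, (∀ a ∈ l, 2 ≤ a) → l.sum ≤ b →
      par = decide (Odd (Multiset.card ((l : Multiset ℕ).filter (fun n => Even n)))) →
      Nat.lcm L (Multiset.lcm (l : Multiset ℕ)) ∈ ok := by
  intro fuel
  induction fuel with
  | zero =>
    intro b L par hb h l hl hsum hpar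
    cases l with
    | nil =>
      have h1 := chkOrd_head ok 0 b L par h
      simp at hpar
      rw [hpar] at h1
      simpa using h1
    | cons a l' =>
      exfalso
      have := hl a (List.mem_cons_self)
      simp at hsum
      omega
  | succ n ih =>
    intro b L par hb h l hl hsum hpar
    cases l with
    | nil =>
      have h1 := chkOrd_head ok (n + 1) b L par h
      simp at hpar
      rw [hpar] at h1
      simpa using h1
    | cons a l' =>
      have ha2 := hl a (List.mem_cons_self)
      simp only [List.sum_cons] at hsum
      simp only [chkOrd, Bool.and_eq_true, List.all_eq_true, List.mem_range] at h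
      have h2 := h.2 a (by omega)
      have h3 : chkOrd ok n (b - a) (Nat.lcm L a) (xor par (decide (a % 2 = 0))) = true := by
        rcases (Bool.or_eq_true_iff).1 h2 with h4 | h4
        · simp at h4; omega
        · exact h4
      have h5 := ih (b - a) (Nat.lcm L a) (xor par (decide (a % 2 = 0))) (by omega) h3 l'
        (fun x hx => hl x (List.mem_cons_of_mem _ hx)) (by omega) (by
          rw [hpar]
          rw [← Multiset.cons_coe]
          by_cases hae : Even a
          · rw [Multiset.filter_cons_of_pos _ hae, Multiset.card_cons]
            have : a % 2 = 0 := Nat.even_iff.1 hae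
            simp only [this, decide_true, Bool.xor_true]
            generalize Multiset.card (Multiset.filter (fun n => Even n) (l' : Multiset ℕ)) = c
            by_cases hc : Odd c
            · have : ¬ Odd (c + 1) := by rw [Nat.odd_add_one]; exact not_not.2 hc
              simp [hc, this]
            · have : Odd (c + 1) := by rw [Nat.odd_add_one]; exact hc
              simp [hc, this]
          · rw [Multiset.filter_cons_of_neg _ hae]
            have : a % 2 ≠ 0 := fun h0 => hae (Nat.even_iff.2 h0)
            simp [this])
      rw [← Multiset.cons_coe, Multiset.lcm_cons]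
      have h6 : Nat.lcm L (GCDMonoid.lcm a (Multiset.lcm (l' : Multiset ℕ))) =
          Nat.lcm (Nat.lcm L a) (Multiset.lcm (l' : Multiset ℕ)) := by
        rw [lcm_eq_nat_lcm, Nat.lcm_assoc]
      rw [h6]
      exact h5

/-- If the checker succeeds for degree `n`, every element of the alternating group of degree `n`
has order in the list `ok`. -/
theorem orderOf_mem_of_chkOrd (n : ℕ) (ok : List ℕ) (h : chkOrd ok n n 1 false = true)
    (g : alternatingGroup (Fin n)) : orderOf g ∈ ok := by
  have hord : orderOf g = orderOf (g : Equiv.Perm (Fin n)) := (Subgroup.orderOf_coe g).symm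
  rw [hord, ← Equiv.Perm.lcm_cycleType]
  have hsign : Equiv.Perm.sign (g : Equiv.Perm (Fin n)) = 1 :=
    Equiv.Perm.mem_alternatingGroup.1 g.2
  have heven := even_card_even_cycles _ hsign
  have hsum : (g : Equiv.Perm (Fin n)).cycleType.sum ≤ n := by
    have := Equiv.Perm.sum_cycleType_le (g : Equiv.Perm (Fin n))
    simpa using this
  have h2 : ∀ a ∈ (g : Equiv.Perm (Fin n)).cycleType, 2 ≤ a :=
    fun a ha => Equiv.Perm.two_le_of_mem_cycleType ha
  obtain ⟨l, hl⟩ : ∃ l : List ℕ, (l : Multiset ℕ) = (g : Equiv.Perm (Fin n)).cycleType :=
    ⟨_, Multiset.coe_toList _⟩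
  rw [← hl] at heven hsum h2 ⊢
  have := chkOrd_sound ok n n 1 false le_rfl h l (fun a ha => h2 a (by simpa using ha))
    (by simpa using hsum) (by
      symm
      rw [decide_eq_false_iff_not, Nat.not_odd_iff_even]
      exact heven)
  rw [Nat.lcm_one_left] at this
  exact this

/-- Every multiset of parts at least two with sum at most `n` and an even number of even parts
is the cycle type of an element of the alternating group of degree `n`, whose order is the lcm. -/
theorem exists_alt_of_cycleType (n : ℕ) (m : Multiset ℕ) (hsum : m.sum ≤ n) (h2 : ∀ a ∈ m, 2 ≤ a)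
    (heven : Even (Multiset.card (m.filter (fun n => Even n)))) :
    m.lcm ∈ Set.range (orderOf : alternatingGroup (Fin n) → ℕ) := by
  obtain ⟨σ, hσ⟩ := (Equiv.Perm.exists_with_cycleType_iff (α := Fin n) (m := m)).2
    ⟨by simpa using hsum, h2⟩
  have hsign : Equiv.Perm.sign σ = 1 := by
    rw [sign_eq_neg_one_pow_card_even, hσ, heven.neg_one_pow]
  refine ⟨⟨σ, Equiv.Perm.mem_alternatingGroup.2 hsign⟩, ?_⟩
  rw [← Subgroup.orderOf_coe]
  show orderOf σ = _
  rw [← Equiv.Perm.lcm_cycleType, hσ]

/-- The factorization of a number with a known list of prime factors. -/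
theorem factorization_eq_count (N : ℕ) (l : List ℕ) (hprod : l.prod = N)
    (hprime : ∀ q ∈ l, q.Prime) (q : ℕ) : N.factorization q = l.count q := by
  have hperm := Nat.primeFactorsList_unique hprod hprime
  rw [← Nat.primeFactorsList_count_eq, hperm.count_eq]

end Cfsg.Agent.Lib.Helper4
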