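import Mathlib
import Cfsg.Agent.Lib.Helper4.SympBasis
import Cfsg.Agent.Lib.Helper4.TwoRankSp

set_option autoImplicit false

namespace Cfsg.Agent.Lib.Helper4

universe u v

section

variable {F : Type u} [Field F] {V : Type v} [AddCommGroup V] [Module F V]

/-- A symplectic family. -/
def SympFam (B : LinearMap.BilinForm F V) {k : ℕ} (e f : Fin k → V) : Prop :=
  (∀ i j, B (e i) (f j) = if i = j then 1 else 0) ∧ (∀ i j, B (e i) (e j) = 0) ∧
    (∀ i j, B (f i) (f j) = 0)

/-- The set of symplectic families of a given size. -/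
abbrev SympSet (B : LinearMap.BilinForm F V) (k : ℕ) : Type v :=
  {p : (Fin k → V) × (Fin k → V) // SympFam B p.1 p.2}

theorem SympFam.cons (B : LinearMap.BilinForm F V) (halt : ∀ x, B x x = 0) {k : ℕ}
    {e f : Fin k → V} (h : SympFam B e f) (v w : V) (hvw : B v w = 1)
    (horth : ∀ i, B v (e i) = 0 ∧ B w (e i) = 0 ∧ B v (f i) = 0 ∧ B w (f i) = 0) :
    SympFam B (Fin.cons v e : Fin (k + 1) → V) (Fin.cons w f : Fin (k + 1) → V) := by
  obtain ⟨h1, h2, h3⟩ := h
  refine ⟨?_, ?_, ?_⟩
  · intro i j
    refine Fin.cases ?_ (fun i' => ?_) i <;> refine Fin.cases ?_ (fun j' => ?_) j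
    · simp [hvw]
    · simp [(horth j').2.2.1, (Fin.succ_ne_zero j').symm]
    · have h5 : B (e i') w = 0 := by rw [alt_swap B halt, (horth i').2.1, neg_zero]
      simp [h5, Fin.succ_ne_zero]
    · have := h1 i' j'
      simp only [Fin.cons_succ, Fin.succ_inj]
      exact this
  · intro i j
    refine Fin.cases ?_ (fun i' => ?_) i <;> refine Fin.cases ?_ (fun j' => ?_) j
    · simp only [Fin.cons_zero]
      exact halt v
    · simp only [Fin.cons_zero, Fin.cons_succ]
      exact (horth j').1
    · simp only [Fin.cons_zero, Fin.cons_succ]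
      rw [alt_swap B halt, (horth i').1, neg_zero]
    · simp only [Fin.cons_succ]
      exact h2 i' j'
  · intro i j
    refine Fin.cases ?_ (fun i' => ?_) i <;> refine Fin.cases ?_ (fun j' => ?_) j
    · simp only [Fin.cons_zero]
      exact halt w
    · simp only [Fin.cons_zero, Fin.cons_succ]
      exact (horth j').2.2.2
    · simp only [Fin.cons_zero, Fin.cons_succ]
      rw [alt_swap B halt, (horth i').2.2.2, neg_zero]
    · simp only [Fin.cons_succ]
      exact h3 i' j'

theorem SympFam.tail_orth (B : LinearMap.BilinForm F V) (halt : ∀ x, B x x = 0) {k : ℕ}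
    {e f : Fin (k + 1) → V} (h : SympFam B e f) (i : Fin k) :
    B (e 0) (e i.succ) = 0 ∧ B (f 0) (e i.succ) = 0 ∧ B (e 0) (f i.succ) = 0 ∧
      B (f 0) (f i.succ) = 0 := by
  obtain ⟨h1, h2, h3⟩ := h
  refine ⟨h2 0 i.succ, ?_, ?_, h3 0 i.succ⟩
  · rw [alt_swap B halt, h1 i.succ 0, if_neg (Fin.succ_ne_zero i), neg_zero]
  · rw [h1 0 i.succ, if_neg (Fin.succ_ne_zero i).symm]

/-- The fibre of "first pair" is the set of symplectic families of the orthogonal complement. -/
noncomputable def sympFiberEquiv (B : LinearMap.BilinForm F V) (halt : ∀ x, B x x = 0) (k : ℕ)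
    (v w : V) (hvw : B v w = 1) :
    {x : SympSet B (k + 1) // x.1.1 0 = v ∧ x.1.2 0 = w} ≃
      SympSet (LinearMap.BilinForm.restrict B
        (LinearMap.BilinForm.orthogonal B (Submodule.span F (Set.range ![v, w])))) k where
  toFun x :=
    ⟨(fun i => ⟨x.1.1.1 i.succ, by
        rw [alt_orth_mem]
        have h1 := (SympFam.tail_orth B halt x.1.2 i).1
        have h2 := (SympFam.tail_orth B halt x.1.2 i).2.1
        rw [x.2.1] at h1
        rw [x.2.2] at h2
        exact ⟨h1, h2⟩⟩,
      fun i => ⟨x.1.1.2 i.succ, by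
        rw [alt_orth_mem]
        have h1 := (SympFam.tail_orth B halt x.1.2 i).2.2.1
        have h2 := (SympFam.tail_orth B halt x.1.2 i).2.2.2
        rw [x.2.1] at h1
        rw [x.2.2] at h2
        exact ⟨h1, h2⟩⟩), by
      obtain ⟨h1, h2, h3⟩ := x.1.2
      refine ⟨fun i j => ?_, fun i j => ?_, fun i j => ?_⟩
      · have := h1 i.succ j.succ
        simp only [Fin.succ_inj] at this
        exact this
      · exact h2 i.succ j.succ
      · exact h3 i.succ j.succ⟩
  invFun y :=
    ⟨⟨(Fin.cons v (fun i => (y.1.1 i : V)), Fin.cons w (fun i => (y.1.2 i : V))), by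
      have hy : SympFam B (fun i => (y.1.1 i : V)) (fun i => (y.1.2 i : V)) := y.2
      refine hy.cons B halt v w hvw (fun i => ?_)
      have h1 := (alt_orth_mem B v w _).1 (y.1.1 i).2
      have h2 := (alt_orth_mem B v w _).1 (y.1.2 i).2
      exact ⟨h1.1, h1.2, h2.1, h2.2⟩⟩, ⟨rfl, rfl⟩⟩
  left_inv x := by
    apply Subtype.ext
    apply Subtype.ext
    refine Prod.ext ?_ ?_
    · funext i
      refine Fin.cases ?_ (fun i' => ?_) i
      · exact x.2.1.symm
      · rfl
    · funext i
      refine Fin.cases ?_ (fun i' => ?_) i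
      · exact x.2.2.symm
      · rfl
  right_inv y := by
    apply Subtype.ext
    refine Prod.ext ?_ ?_
    · funext i
      apply Subtype.ext
      rfl
    · funext i
      apply Subtype.ext
      rfl

end

theorem hyp_pairs_card {F : Type u} [Field F] [Fintype F] {V : Type v} [AddCommGroup V]
    [Module F V] [FiniteDimensional F V] (B : LinearMap.BilinForm F V) (hB : B.Nondegenerate)
    {n : ℕ} (hV : Module.finrank F V = n + 1) :
    Nat.card {vw : V × V // B vw.1 vw.2 = 1} =
      (Fintype.card F ^ (n + 1) - 1) * Fintype.card F ^ n := by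
  classical
  haveI : Finite V := Module.finite_of_finite F
  haveI : Fintype V := Fintype.ofFinite V
  rw [Nat.card_congr (Equiv.subtypeProdEquivSigmaSubtype (fun v w : V => B v w = 1)),
    Nat.card_sigma]
  have hfib : ∀ v : V, Nat.card {w : V // B v w = 1} = if v = 0 then 0 else Fintype.card F ^ n := by
    intro v
    by_cases hv : v = 0
    · rw [if_pos hv, hv]
      have : IsEmpty {w : V // B 0 w = 1} := ⟨fun w => by
        have := w.2
        simp at this⟩
      exact Nat.card_of_isEmpty
    · rw [if_neg hv]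
      obtain ⟨y, hy⟩ : ∃ y, B v y ≠ 0 := by
        by_contra hcon
        push Not at hcon
        exact hv (hB.1 v hcon)
      obtain ⟨w₀, hw₀⟩ : ∃ w₀, B v w₀ = 1 :=
        ⟨(B v y)⁻¹ • y, by rw [map_smul, smul_eq_mul, inv_mul_cancel₀ hy]⟩
      have e : {w : V // B v w = 1} ≃ LinearMap.ker (B v) :=
        { toFun := fun w => ⟨w.1 - w₀, by
            rw [LinearMap.mem_ker, map_sub, w.2, hw₀, sub_self]⟩
          invFun := fun z => ⟨z.1 + w₀, by
            have := z.2
            rw [LinearMap.mem_ker] at this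
            rw [map_add, this, hw₀, zero_add]⟩
          left_inv := fun w => by
            apply Subtype.ext
            simp
          right_inv := fun z => by
            apply Subtype.ext
            simp }
      rw [Nat.card_congr e, Module.natCard_eq_pow_finrank (K := F), Nat.card_eq_fintype_card]
      congr 1
      have h1 := LinearMap.finrank_range_add_finrank_ker (B v)
      have h2 : LinearMap.range (B v) = ⊤ := by
        rw [LinearMap.range_eq_top]
        intro c
        exact ⟨c • w₀, by rw [map_smul, hw₀, smul_eq_mul, mul_one]⟩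
      rw [h2, finrank_top, Module.finrank_self, hV] at h1
      omega
  simp only [hfib]
  rw [← Finset.sum_erase Finset.univ (a := (0 : V)) (by simp)]
  rw [Finset.sum_congr rfl (fun x hx => if_neg (Finset.ne_of_mem_erase hx)), Finset.sum_const,
    Finset.card_erase_of_mem (Finset.mem_univ _), Finset.card_univ,
    Module.card_eq_pow_finrank (K := F) (V := V), hV, smul_eq_mul]

theorem sympSet_card (F : Type u) [Field F] [Fintype F] :
    ∀ (m : ℕ) (V : Type v) [AddCommGroup V] [Module F V] [FiniteDimensional F V]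
      (B : LinearMap.BilinForm F V), Module.finrank F V = 2 * m → (∀ x, B x x = 0) →
      B.Nondegenerate →
      Nat.card (SympSet B m) = ∏ i ∈ Finset.range m,
        ((Fintype.card F ^ (2 * (i + 1)) - 1) * Fintype.card F ^ (2 * i + 1)) := by
  intro m
  induction m with
  | zero =>
    intro V _ _ _ B hV halt hB
    rw [Finset.range_zero, Finset.prod_empty, Nat.card_eq_one_iff_unique]
    refine ⟨⟨fun a b => Subtype.ext (Prod.ext (funext fun i => i.elim0)
      (funext fun i => i.elim0))⟩, ⟨⟨(Fin.elim0, Fin.elim0),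
      fun i => i.elim0, fun i => i.elim0, fun i => i.elim0⟩⟩⟩
  | succ m ih =>
    intro V _ _ _ B hV halt hB
    classical
    haveI : Finite V := Module.finite_of_finite F
    haveI : Fintype V := Fintype.ofFinite V
    let π : SympSet B (m + 1) → {vw : V × V // B vw.1 vw.2 = 1} := fun x =>
      ⟨(x.1.1 0, x.1.2 0), by
        have := x.2.1 0 0
        rw [if_pos rfl] at this
        exact this⟩
    haveI : Fintype {vw : V × V // B vw.1 vw.2 = 1} := Fintype.ofFinite _
    rw [← Nat.card_congr (Equiv.sigmaFiberEquiv π), Nat.card_sigma]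
    have hfib : ∀ y : {vw : V × V // B vw.1 vw.2 = 1}, Nat.card {x // π x = y} =
        ∏ i ∈ Finset.range m,
          ((Fintype.card F ^ (2 * (i + 1)) - 1) * Fintype.card F ^ (2 * i + 1)) := by
      rintro ⟨⟨v, w⟩, hvw⟩
      have e1 : {x // π x = ⟨(v, w), hvw⟩} ≃ {x : SympSet B (m + 1) // x.1.1 0 = v ∧ x.1.2 0 = w} :=
        Equiv.subtypeEquivRight (fun x => by
          simp only [π, Subtype.mk.injEq, Prod.mk.injEq])
      rw [Nat.card_congr e1, Nat.card_congr (sympFiberEquiv B halt m v w hvw)]
      obtain ⟨hfr, hnd⟩ := alt_split B halt hB v w hvw (k := 2 * m) (by omega)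
      exact ih _ _ hfr (fun x => halt (x : V)) hnd
    simp only [hfib]
    rw [Finset.sum_const, Finset.card_univ, smul_eq_mul, Finset.prod_range_succ,
      ← Nat.card_eq_fintype_card, hyp_pairs_card B hB (n := 2 * m + 1) (by omega), mul_comm]
    congr 2

theorem alt_nondeg_of_left {F : Type u} [Field F] {V : Type v} [AddCommGroup V] [Module F V]
    (B : LinearMap.BilinForm F V) (halt : ∀ x, B x x = 0)
    (hnd : ∀ x, (∀ y, B x y = 0) → x = 0) : B.Nondegenerate := by
  refine ⟨hnd, ?_⟩
  intro y hy
  apply hnd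
  intro x
  rw [alt_swap B halt, hy x, neg_zero]

section sp

open Matrix

/-- The standard symplectic form as a bilinear form. -/
noncomputable def stdSymp (m : ℕ) (F : Type u) [Field F] :
    LinearMap.BilinForm F (Fin m ⊕ Fin m → F) :=
  Matrix.toLinearMap₂' F (Matrix.J (Fin m) F)

theorem stdSymp_apply {F : Type u} [Field F] {m : ℕ} (a b : Fin m ⊕ Fin m → F) :
    stdSymp m F a b = Cfsg.sympForm m F a b := by
  show Matrix.toLinearMap₂' F (Matrix.J (Fin m) F) a b = _
  rw [Matrix.toLinearMap₂'_apply']
  rfl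

theorem stdSymp_alt {F : Type u} [Field F] {m : ℕ} (x : Fin m ⊕ Fin m → F) :
    stdSymp m F x x = 0 := by
  rw [stdSymp_apply, sympForm_self]

theorem stdSymp_nondeg {F : Type u} [Field F] (m : ℕ) : (stdSymp m F).Nondegenerate := by
  refine alt_nondeg_of_left _ stdSymp_alt ?_
  intro x hx
  apply sympForm_nondeg
  intro y
  rw [← stdSymp_apply]
  exact hx y

theorem sympForm_col {F : Type u} [Field F] {m : ℕ}
    (A : Matrix (Fin m ⊕ Fin m) (Fin m ⊕ Fin m) F) (i j : Fin m ⊕ Fin m) :
    Cfsg.sympForm m F (fun r => A r i) (fun r => A r j) = (Aᵀ * Matrix.J (Fin m) F * A) i j := by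
  rw [Matrix.mul_assoc]
  rfl

/-- Symplectic matrices correspond to symplectic families (their columns). -/
noncomputable def spEquivSympSet (m : ℕ) (F : Type u) [Field F] :
    ↥(Matrix.symplecticGroup (Fin m) F) ≃ SympSet (stdSymp m F) m where
  toFun A := ⟨(fun i => fun r => A.1 r (Sum.inr i), fun i => fun r => A.1 r (Sum.inl i)), by
    have hA := SymplecticGroup.mem_iff'.1 A.2
    refine ⟨fun i j => ?_, fun i j => ?_, fun i j => ?_⟩
    · rw [stdSymp_apply, sympForm_col, hA]
      simp [Matrix.J, Matrix.one_apply]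
    · rw [stdSymp_apply, sympForm_col, hA]
      simp [Matrix.J]
    · rw [stdSymp_apply, sympForm_col, hA]
      simp [Matrix.J]⟩
  invFun p := ⟨Matrix.of (fun r c => Sum.elim p.1.2 p.1.1 c r), by
    rw [SymplecticGroup.mem_iff']
    obtain ⟨h1, h2, h3⟩ := p.2
    ext i j
    rw [← sympForm_col]
    rcases i with i | i <;> rcases j with j | j
    · have := h3 i j
      rw [stdSymp_apply] at this
      simpa [Matrix.J] using this
    · have h4 := alt_swap (stdSymp m F) stdSymp_alt (p.1.2 i) (p.1.1 j)
      rw [h1 j i, stdSymp_apply] at h4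
      simp only [Matrix.of_apply, Sum.elim_inl, Sum.elim_inr]
      rw [h4]
      simp [Matrix.J, Matrix.one_apply, eq_comm]
    · have := h1 i j
      rw [stdSymp_apply] at this
      simpa [Matrix.J, Matrix.one_apply] using this
    · have := h2 i j
      rw [stdSymp_apply] at this
      simpa [Matrix.J] using this⟩
  left_inv A := by
    apply Subtype.ext
    ext r c
    rcases c with c | c <;> rfl
  right_inv p := by
    apply Subtype.ext
    rfl

theorem prod_odd_pow (q m : ℕ) : ∏ i ∈ Finset.range m, q ^ (2 * i + 1) = q ^ (m ^ 2) := by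
  induction m with
  | zero => simp
  | succ m ih =>
    rw [Finset.prod_range_succ, ih, ← pow_add]
    congr 1
    ring

theorem sp_card {F : Type u} [Field F] [Fintype F] (m : ℕ) :
    Nat.card (Matrix.symplecticGroup (Fin m) F) =
      Fintype.card F ^ (m ^ 2) * ∏ i ∈ Finset.range m, (Fintype.card F ^ (2 * (i + 1)) - 1) := by
  have hV : Module.finrank F (Fin m ⊕ Fin m → F) = 2 * m := by
    simp
    omega
  rw [Nat.card_congr (spEquivSympSet m F),
    sympSet_card F m _ (stdSymp m F) hV stdSymp_alt (stdSymp_nondeg m),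
    Finset.prod_mul_distrib, prod_odd_pow, mul_comm]

end sp

end Cfsg.Agent.Lib.Helper4
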